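import Cfsg.Agent.N2.D4m.Defs
import Cfsg.Agent.S2140
import Cfsg.Agent.S2141
import Cfsg.Agent.S2150
import Cfsg.Agent.SB.Cl.Cent

/-!
# N2, dimension four: minimal index, counting criteria (helper21)
-/

set_option autoImplicit false
set_option linter.unusedSectionVars false

namespace Cfsg.Agent.N2C.N4

open Cfsg Cfsg.Agent.DS.Cl Cfsg.Agent.DS.Cl.Fwd Module Subgroup
open Cfsg.Agent.FP3 (Good MI ASRow fx)
open Cfsg.Agent.TH.Cl (KL KU KSp)

section groups

variable {T X : Type*} [Group T] [Finite T]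

/-- the fixed cosets are labelled by elements of `Y` -/
theorem fx_le_ncard {B : Subgroup T} {a : T} (f : T → X) (h1 : ∀ s t, f s = f t → s⁻¹ * t ∈ B) {Y : Set X}
    (hY : Y.Finite) (h2 : ∀ s, s⁻¹ * a * s ∈ B → f s ∈ Y) : fx B a ≤ Y.ncard := by
  have := hY.to_subtype
  refine Nat.card_le_card_of_injective (fun x : MulAction.fixedBy (T ⧸ B) a => (⟨f x.1.out, h2 _
    ((N2.smul_mk_iff B a _).1 (by rw [QuotientGroup.out_eq']; exact x.2))⟩ : Y)) fun x y e => Subtype.ext ?_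
  rw [← QuotientGroup.out_eq' x.1, ← QuotientGroup.out_eq' y.1]
  exact QuotientGroup.eq.2 (h1 _ _ (Subtype.mk.inj e))

theorem good_of_fx {B : Subgroup T} {a : T} (ha : a ∈ B) {m : ℕ} (h : fx B a ≤ m) (hm : m ^ 3 ≤ B.index) : Good B :=
  ⟨a, ha, (Nat.pow_le_pow_left h 3).trans hm⟩

omit [Finite T] in
theorem idx_congr {G : Type*} [Group G] (e : T ≃* G) {m : ℕ} (h : ∀ B : Subgroup G, B ≠ ⊤ → m ≤ B.index)
    {B : Subgroup T} (hB : B ≠ ⊤) : m ≤ B.index := by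
  rw [← index_comap_of_surjective B (f := e.symm.toMonoidHom) e.symm.surjective]
  exact h _ fun k => hB (comap_injective (f := e.symm.toMonoidHom) e.symm.surjective (k.trans (comap_top _).symm))

/-- **centralisers of automorphisms**: the fixed cosets are the conjugates of `φ` which commute with `a` -/
theorem fx_cen {G : Type*} [Group G] [Finite G] (S : Subgroup G) (φ : G) (a : S) :
    fx ((centralizer {φ}).subgroupOf S) a ≤ {ψ : G | (∃ s ∈ S, s * φ * s⁻¹ = ψ) ∧ ψ * a = a * ψ}.ncard := by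
  refine fx_le_ncard (fun s : S => (s : G) * φ * (s : G)⁻¹) (fun s t e => ?_) (Set.toFinite _) fun s hs => ⟨⟨s, s.2, rfl⟩, ?_⟩
  · rw [mem_subgroupOf, mem_centralizer_singleton_iff, coe_mul, coe_inv]
    calc (s : G)⁻¹ * t * φ = (s : G)⁻¹ * (t * φ * (t : G)⁻¹) * t := by group
      _ = _ := by rw [← e]; group
  · have h1 : (s : G)⁻¹ * a * s * φ = φ * ((s : G)⁻¹ * a * s) := mem_centralizer_singleton_iff.1 hs
    calc (s : G) * φ * (s : G)⁻¹ * a = s * (φ * ((s : G)⁻¹ * a * s)) * (s : G)⁻¹ := by group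
      _ = _ := by rw [← h1]; group

/-- the twisted norm -/
theorem fx_cen' {G : Type*} [Group G] [Finite G] (S : Subgroup G) {φ : G} (hφ : ∀ s ∈ S, φ * s * φ⁻¹ ∈ S) (a : S)
    (ha : φ * a = a * φ) {r : ℕ} (hr : φ ^ r = 1) : fx ((centralizer {φ}).subgroupOf S) a ≤
      {g : G | g ∈ S ∧ g * a = a * g ∧ (g * φ) ^ r = 1}.ncard := by
  refine (fx_cen S φ a).trans (Set.ncard_le_ncard_of_injOn (fun ψ => ψ * φ⁻¹) ?_ (fun _ _ _ _ e => mul_right_cancel e)
    (Set.toFinite _))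
  rintro _ ⟨⟨s, hs, rfl⟩, h1⟩
  refine ⟨?_, ?_, by rw [inv_mul_cancel_right, conj_pow, hr, mul_one, mul_inv_cancel]⟩
  · rw [mul_assoc, mul_assoc, ← mul_assoc φ]
    exact mul_mem hs (hφ _ (inv_mem hs))
  · rw [mul_assoc, (show Commute φ a from ha).inv_left.eq, ← mul_assoc, h1, mul_assoc]

end groups

theorem geom4 {q : ℕ} (hq : 2 ≤ q) : (q ^ 4 - 1) / (q - 1) = q ^ 3 + q ^ 2 + q + 1 := by
  obtain ⟨r, rfl⟩ : ∃ r, q = r + 1 := ⟨q - 1, by omega⟩
  rw [Nat.add_sub_cancel, show (r + 1) ^ 4 = r * ((r + 1) ^ 3 + (r + 1) ^ 2 + (r + 1) + 1) + 1 by ring, Nat.add_sub_cancel,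
    Nat.mul_div_cancel_left _ (by omega)]

section idx

variable {K V : Type} [Field K] [Fintype K] [AddCommGroup V] [Module K V] [Finite V]

theorem idxL {F : FR (LR (Fin 4) K)} (k : KL F) (hq : 3 ≤ Fintype.card K) {B : Subgroup F.S} (hB : B ≠ ⊤) :
    Fintype.card K ^ 3 + Fintype.card K ^ 2 + Fintype.card K + 1 ≤ B.index := by
  obtain ⟨e⟩ := k.iso
  rw [← geom4 (by omega)]
  exact idx_congr e (S2140.result rfl 4 (by omega) (by omega)).1 hB

theorem idxS {h : HF K V} {F : FR h.EB} (k : KSp h F 2) (hq : 4 ≤ Fintype.card K) {B : Subgroup F.S} (hB : B ≠ ⊤) :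
    Fintype.card K ^ 3 + Fintype.card K ^ 2 + Fintype.card K + 1 ≤ B.index := by
  obtain ⟨e⟩ := k.iso
  rw [← geom4 (by omega)]
  exact idx_congr e (S2141.result rfl 2 le_rfl (by omega) (by omega)).1 hB

theorem idxU {h : HF K V} {F : FR h.EB} {q : ℕ} (k : KU h F q) (hn : finrank K V = 4) (hq : 2 ≤ q) {B : Subgroup F.S}
    (hB : B ≠ ⊤) : (q + 1) * (q ^ 3 + 1) ≤ B.index := by
  obtain ⟨e⟩ := k.iso
  rw [hn] at e
  exact idx_congr e (S2150.result q k.card hq).1 hB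

/-- **MIN**, linear -/
theorem minL {F : FR (LR (Fin 4) K)} (k : KL F) (hq : 3 ≤ Fintype.card K) {B : Subgroup F.S} (hB : B ≠ ⊤) {m : ℕ}
    (hm : m ≤ Fintype.card K) : m ^ 3 ≤ B.index :=
  (Nat.pow_le_pow_left hm 3).trans (le_trans (by omega) (idxL k hq hB))

/-- **MIN**, symplectic -/
theorem minS {h : HF K V} {F : FR h.EB} (k : KSp h F 2) (hq : 4 ≤ Fintype.card K) {B : Subgroup F.S} (hB : B ≠ ⊤)
    {m : ℕ} (hm : m ≤ Fintype.card K) : m ^ 3 ≤ B.index :=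
  (Nat.pow_le_pow_left hm 3).trans (le_trans (by omega) (idxS k hq hB))

/-- **MIN**, unitary -/
theorem minU {h : HF K V} {F : FR h.EB} {q : ℕ} (k : KU h F q) (hn : finrank K V = 4) (hq : 2 ≤ q) {B : Subgroup F.S}
    (hB : B ≠ ⊤) {m : ℕ} (hm : m ≤ q + 1) : m ^ 3 ≤ B.index := by
  refine (Nat.pow_le_pow_left hm 3).trans (le_trans ?_ (idxU k hn hq hB))
  rw [pow_succ']
  refine Nat.mul_le_mul_left _ ?_
  obtain ⟨r, rfl⟩ := Nat.exists_eq_add_of_le hq
  ring_nf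
  omega

end idx

section ring

variable {A : Type} [Ring A] [StarRing A] [Finite A] {F : FR A} {H : Subgroup (RingAut A)} {p : ℕ}

theorem finAut4 : Finite (RingAut A) := Finite.of_injective (fun γ : RingAut A => (γ : A → A)) DFunLike.coe_injective

/-- **COUNT**: `f s` is the image of the structure under `s`; `Y` contains the images which are fixed by `a` -/
theorem gd_of_count {X : Type*} (f : RingAut A → X) (h1 : ∀ s ∈ F.S, ∀ t ∈ F.S, f s = f t → s⁻¹ * t ∈ H)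
    {a : RingAut A} (ha : a ∈ F.S) (haH : a ∈ H) {Y : Set X} (hY : Y.Finite)
    (h2 : ∀ s ∈ F.S, s⁻¹ * a * s ∈ H → f s ∈ Y) {m : ℕ} (hm : Y.ncard ≤ m)
    (hi : m ^ 3 ≤ (H.subgroupOf F.S).index) : Gd F H :=
  have := finAut4 (A := A)
  good_of_fx (a := ⟨a, ha⟩) haH ((fx_le_ncard (fun s : F.S => f s) (fun s t => h1 s s.2 t t.2) hY
    fun s => h2 s s.2).trans hm) hi

/-- `H ⊓ F.S` is the centraliser of `φ` -/
theorem eq_cen (c : Ctx F H p) {φ : RingAut A} (hc : ∀ γ ∈ H, γ * φ = φ * γ) (hn : ¬ ∀ s ∈ F.S, φ * s = s * φ) :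
    H.subgroupOf F.S = (centralizer {φ}).subgroupOf F.S :=
  Subgroup.ext fun s => ⟨fun h => mem_centralizer_singleton_iff.2 (hc s h), c.max'
    (fun γ hγ => mem_centralizer_singleton_iff.2 (hc γ hγ))
    (fun h => hn fun s hs => (mem_centralizer_singleton_iff.1 (h hs)).symm) s.2⟩

end ring

end Cfsg.Agent.N2C.N4
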